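import Cfsg.Agent.H6.HN.M.D0

set_option autoImplicit false
set_option maxRecDepth 100000
set_option Elab.async false

namespace Cfsg.H6.HN.M

theorem d8 : Nat.beq (trF (P.img P.d code) [5,4,2,3,3] (code 7)) (code 8) = true := by
  decide +kernel

theorem d9 : Nat.beq (trF (P.img P.d code) [7,5,4,2,3,3,4,1] (code 3)) (code 9) = true := by
  decide +kernel

theorem d10 : Nat.beq (trF (P.img P.d code) [6] (code 1)) (code 10) = true := by
  decide +kernel

theorem d11 : Nat.beq (trF (P.img P.d code) [5] (code 6)) (code 11) = true := by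
  decide +kernel

theorem d12 : Nat.beq (trF (P.img P.d code) [7,5,4,2,3,3,1,3] (code 2)) (code 12) = true := by
  decide +kernel

theorem d13 : Nat.beq (trF (P.img P.d code) [3] (code 3)) (code 13) = true := by
  decide +kernel

theorem d14 : Nat.beq (trF (P.img P.d code) [4,1,3] (code 2)) (code 14) = true := by
  decide +kernel

theorem d15 : Nat.beq (trF (P.img P.d code) [3,3,1,3,3,3] (code 2)) (code 15) = true := by
  decide +kernel

theorem d16 : Nat.beq (trF (P.img P.d code) [3] (code 1)) (code 16) = true := by
  decide +kernel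

theorem d17 : Nat.beq (trF (P.img P.d code) [3,1,3,3,3] (code 1)) (code 17) = true := by
  decide +kernel

theorem d18 : Nat.beq (trF (P.img P.d code) [4,2,4,2,4,4,4,5,3,3,3,1,3,1,3,1,4,2,4,2,4,4,4,5,3,3,3,1,3,1,3,1,4,2,4,2,4,4,4,5,3,3,3,1] (code 5)) (code 18) = true := by
  decide +kernel

theorem d19 : Nat.beq (trF (P.img P.d code) [6] (code 5)) (code 19) = true := by
  decide +kernel

theorem d20 : Nat.beq (trF (P.img P.d code) [5,6,3,3] (code 6)) (code 20) = true := by
  decide +kernel

theorem d21 : Nat.beq (trF (P.img P.d code) [20,20] (code 20)) (code 21) = true := by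
  decide +kernel

theorem d22 : Nat.beq (trF (P.img P.d code) [7,5,7] (code 3)) (code 22) = true := by
  decide +kernel

theorem d23 : Nat.beq (trF (P.img P.d code) [22] (code 22)) (code 23) = true := by
  decide +kernel


end Cfsg.H6.HN.M
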