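import Cfsg.Agent.H6.HN.M.D0

set_option autoImplicit false
set_option maxRecDepth 100000
set_option Elab.async false

namespace Cfsg.H6.HN.M

theorem d24 : Nat.beq (trF (P.img P.d code) [6,6,6,2,2,2,3,6,6,4,4,6,1,6,6,2,2,2,7,7,3,5,2,2,5,1,3,6,1] (code 5)) (code 24) = true := by
  decide +kernel

theorem d25 : Nat.beq (trF (P.img P.d code) [7,2,7,7,3,1,3,2,4,2,6,3,5,7,1,4,2,5,1,1,5,6,3,6,5,5,2,7,5] (code 24)) (code 25) = true := by
  decide +kernel

theorem d26 : Nat.beq (trF (P.img P.d code) [5,4,5,5,7,5,1,6,6,5,3] (code 25)) (code 26) = true := by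
  decide +kernel

theorem d27 : Nat.beq (trF (P.img P.d code) [5,1,1,6,1,5,7,5,2,7,7,7,7,3,1,3,7,5,3,5,1,6,6,2,7,1,5,2,4] (code 2)) (code 27) = true := by
  decide +kernel

theorem d28 : Nat.beq (trF (P.img P.d code) [5,3,7,5,4,1,1,6,5,5,3,6,4,5,2,7,7,4,4,5,4,2,5,5,2,5,7,1,3] (code 27)) (code 28) = true := by
  decide +kernel


end Cfsg.H6.HN.M
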