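import Cfsg.Agent.H6.HN.M.D0

set_option autoImplicit false
set_option maxRecDepth 100000
set_option Elab.async false

namespace Cfsg.H6.HN.M

theorem v2_9 : dvChk tab2 346 5 120 [[2,2]] [] [56,120] (unp 1 (nat_lit 0x7800)) = true := by
  decide +kernel

theorem v2_8 : dvChk tab2 346 5 15 [[1,2,1,2]] [[2,2]] [15,173] (unp 1 (nat_lit 0xf00)) = true := by
  decide +kernel

theorem v2_7 : dvChk tab2 346 5 247 [[1,3,3,1,3,3]] [[1,2,1,2], [2,2]] [223,247] (unp 1 (nat_lit 0xf700)) = true := by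
  decide +kernel

theorem v2_6 : dvChk tab2 346 5 176 [[2,3,2,3], [1,1,4,3,4,3]] [[1,3,3,1,3,3], [1,2,1,2], [2,2]] [18,99,176,240] (unp 3 (nat_lit 0x6300000012010000b000)) = true := by
  decide +kernel

theorem v2_5 : dvChk tab2 346 5 194 [[2,4,3,2,4,3]] [[2,3,2,3], [1,1,4,3,4,3], [1,3,3,1,3,3], [1,2,1,2], [2,2]] [38,194] (unp 1 (nat_lit 0xc200)) = true := by
  decide +kernel

theorem v2_4 : dvChk tab2 346 5 301 [[4,4]] [[2,4,3,2,4,3], [2,3,2,3], [1,1,4,3,4,3], [1,3,3,1,3,3], [1,2,1,2], [2,2]] [140,301] (unp 1 (nat_lit 0x12d00)) = true := by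
  decide +kernel

theorem v2_3 : dvChk tab2 346 5 98 [[2], [1,1], [3,3]] [[4,4], [2,4,3,2,4,3], [2,3,2,3], [1,1,4,3,4,3], [1,3,3,1,3,3], [1,2,1,2], [2,2]] [77,98,125,167,272,285,312,342] (unp 7 (nat_lit 0x7d00000062020001100000004d02000156000000620100006200)) = true := by
  decide +kernel

theorem v2_2 : dvChk tab2 346 5 127 [[1,3,1,4]] [[2], [1,1], [3,3], [4,4], [2,4,3,2,4,3], [2,3,2,3], [1,1,4,3,4,3], [1,3,3,1,3,3], [1,2,1,2], [2,2]] [127,309] (unp 1 (nat_lit 0x7f00)) = true := by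
  decide +kernel

theorem v2_1 : dvChk tab2 346 5 59 [[4]] [[1,3,1,4], [2], [1,1], [3,3], [4,4], [2,4,3,2,4,3], [2,3,2,3], [1,1,4,3,4,3], [1,3,3,1,3,3], [1,2,1,2], [2,2]] [59,313] (unp 1 (nat_lit 0x3b00)) = true := by
  decide +kernel

theorem v2_0 : dvChk tab2 346 5 298 [[1]] [[4], [1,3,1,4], [2], [1,1], [3,3], [4,4], [2,4,3,2,4,3], [2,3,2,3], [1,1,4,3,4,3], [1,3,3,1,3,3], [1,2,1,2], [2,2]] [59,182,298,313] (unp 3 (nat_lit 0x1390000003b0100012a00)) = true := by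
  decide +kernel



end Cfsg.H6.HN.M
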