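import Cfsg.Agent.H6.HN.M.D0

set_option autoImplicit false
set_option maxRecDepth 100000
set_option Elab.async false

namespace Cfsg.H6.HN.M

theorem d29 : Nat.beq (trF (P.img P.d code) [5,4,4,5,4,1,3,3,7,1,5] (code 28)) (code 29) = true := by
  decide +kernel

theorem d30 : Nat.beq (trF (P.img P.d code) [5,3,5,6,5,7,5,2,4,6,6,3,3,5,6,6,5,6,1,1,1,6,3,5,3,6,3,7,5] (code 3)) (code 30) = true := by
  decide +kernel

theorem d31 : Nat.beq (trF (P.img P.d code) [4,4,7,3,7,1,3,2,6,2,7,3,3,1,6,4,6,5,2,5,6,2,5,2,3,1,7,4,4] (code 30)) (code 31) = true := by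
  decide +kernel

theorem d32 : Nat.beq (trF (P.img P.d code) [7,5,2,6,1,7,3,1,6,6,5] (code 31)) (code 32) = true := by
  decide +kernel

theorem d33 : Nat.beq (trF (P.img P.d code) [33] (code 32)) P.one = true := by
  decide +kernel

theorem d34 : Nat.beq (trF (P.img P.d code) [34] (code 26)) P.one = true := by
  decide +kernel

theorem d35 : Nat.beq (trF (P.img P.d code) [29,33,29,26,32,32,29,29,34] (code 26)) (code 35) = true := by
  decide +kernel

theorem d36 : Nat.beq (trF (P.img P.d code) [32,32,32,29,26,29,34,34,34,32,26] (code 29)) (code 36) = true := by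
  decide +kernel

theorem d37 : Nat.beq (trF (P.img P.d code) [37] (code 29)) P.one = true := by
  decide +kernel

theorem d38 : Nat.beq (trF (P.img P.d code) [32,37,32,34,33,33,33,34,29] (code 37)) (code 38) = true := by
  decide +kernel


end Cfsg.H6.HN.M
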