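import Cfsg.Agent.H6.HN.M.D0

set_option autoImplicit false
set_option maxRecDepth 100000
set_option Elab.async false

namespace Cfsg.H6.HN.M

theorem d39 : Nat.beq (trF (P.img P.d code) [7,5,7,1,5,6,5,2,2,2,5,7,1,5,7,4,7,3,5,7,2,2,5,5,1,1,3,6,4] (code 3)) (code 39) = true := by
  decide +kernel

theorem d40 : Nat.beq (trF (P.img P.d code) [1,6,5,1,5,7,5,7,1,5,7,3,3,7,5,5,7,5,5,3,5,2,5,2,5,5,6,4,7] (code 39)) (code 40) = true := by
  decide +kernel

theorem d41 : Nat.beq (trF (P.img P.d code) [5,5,1,1,7,7,4,2,2,6,5] (code 40)) (code 41) = true := by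
  decide +kernel

theorem d42 : Nat.beq (trF (P.img P.d code) [42] (code 41)) P.one = true := by
  decide +kernel

theorem d43 : Nat.beq (trF (P.img P.d code) [1,7,1,7,2,6,3,3,7,1,1,1,7,1,1,1,1,7,4,5,6,3,3,7,3,1,6,6,5] (code 4)) (code 43) = true := by
  decide +kernel

theorem d44 : Nat.beq (trF (P.img P.d code) [1,4,5,6,4,2,5,5,7,7,1,3,1,1,4,7,5,6,6,3,5,5,5,7,4,5,6,2,5] (code 43)) (code 44) = true := by
  decide +kernel


end Cfsg.H6.HN.M
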