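import Cfsg.Agent.H6.HN.M.D0

set_option autoImplicit false
set_option maxRecDepth 100000
set_option Elab.async false

namespace Cfsg.H6.HN.M

theorem d45 : Nat.beq (trF (P.img P.d code) [6,3,7,7,3,6,6,6,5,6,3] (code 44)) (code 45) = true := by
  decide +kernel

theorem d46 : Nat.beq (trF (P.img P.d code) [46] (code 45)) P.one = true := by
  decide +kernel

theorem d47 : Nat.beq (trF (P.img P.d code) [5,1,5,4,5,5,6,1,3,5,5,4,5,1,1,5,1,7,3] (code 1)) (code 47) = true := by
  decide +kernel

theorem d48 : Nat.beq (trF (P.img P.d code) [48] (code 47)) P.one = true := by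
  decide +kernel

theorem d49 : Nat.beq (trF (P.img P.d code) [46,41,46,48,46,46,42,46,48,45,42] (code 42)) (code 49) = true := by
  decide +kernel

theorem d50 : Nat.beq (trF (P.img P.d code) [48,41,47,47,46,48,41,46,41,48,42] (code 48)) (code 50) = true := by
  decide +kernel

theorem d51 : Nat.beq (trF (P.img P.d code) [2,3,5,6,1,4,6,2,5,2,4,5,3,7,5,5,4,6,2,7,7,5,7,3,6,5,5,6,6] (code 4)) (code 51) = true := by
  decide +kernel

theorem d52 : Nat.beq (trF (P.img P.d code) [6,2,4,6,2,7,5,1,7,7,3,5,4,1,3,7,2,3,6,6,5,5,1,7,2,5,1,4,6] (code 51)) (code 52) = true := by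
  decide +kernel

theorem d53 : Nat.beq (trF (P.img P.d code) [4,5,6,5,7,3,2,2,5,4,7,1,1] (code 52)) (code 53) = true := by
  decide +kernel


end Cfsg.H6.HN.M
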