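import Cfsg.Agent.H6.HN.M.D0

set_option autoImplicit false
set_option maxRecDepth 100000
set_option Elab.async false

namespace Cfsg.H6.HN.M

theorem d54 : Nat.beq (trF (P.img P.d code) [54] (code 53)) P.one = true := by
  decide +kernel

theorem d55 : Nat.beq (trF (P.img P.d code) [1,1,4,5,6,5,7,1,7,4,6,3,5,1,6,3,5,7,5,7,1,7,5,5,6,5,7,1,4] (code 7)) (code 55) = true := by
  decide +kernel

theorem d56 : Nat.beq (trF (P.img P.d code) [2,7,1,1,3,3,3,1,1,4,4,6,4,6,5,7,5,1] (code 55)) (code 56) = true := by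
  decide +kernel

theorem d57 : Nat.beq (trF (P.img P.d code) [57] (code 56)) P.one = true := by
  decide +kernel

theorem d58 : Nat.beq (trF (P.img P.d code) [1,5,4,1,5,5,2,4,1,5,3,1,1,5,2,2,2,6,4,1,3,3,6,1,3,5,5,5,1] (code 3)) (code 58) = true := by
  decide +kernel

theorem d59 : Nat.beq (trF (P.img P.d code) [5,3,7,5,6,1,7,3,6,5,5,3,7,2,6,5,6,6,4,6,3,2,7,5,7,7,4,4,5] (code 58)) (code 59) = true := by
  decide +kernel

theorem d60 : Nat.beq (trF (P.img P.d code) [3,7,7,3,1,3,1,1,7,1,4] (code 59)) (code 60) = true := by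
  decide +kernel


end Cfsg.H6.HN.M
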