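import Cfsg.Agent.H6.HN.M.D0

set_option autoImplicit false
set_option maxRecDepth 100000
set_option Elab.async false

namespace Cfsg.H6.HN.M

theorem d61 : Nat.beq (trF (P.img P.d code) [6,5,5,7,7,2,5,5,6,5,5,2,3,5,7,7,5,2,7,2,2,5,5,2,5,3,5,1,6] (code 6)) (code 61) = true := by
  decide +kernel

theorem d62 : Nat.beq (trF (P.img P.d code) [1,1,5,2,2,6,6,5,7,1,1,5,7,5,1,1,1,1,6,2,5,5,1,5,6,1,4,4,6] (code 61)) (code 62) = true := by
  decide +kernel

theorem d63 : Nat.beq (trF (P.img P.d code) [5,5,6,2,5,2,3] (code 62)) (code 63) = true := by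
  decide +kernel

theorem d64 : Nat.beq (trF (P.img P.d code) [5,1,1,6,5,4,4,2,5,3,5,6,1,6,5,6,5,4,6,6,1,6,4,1,5,6,5,7,3] (code 5)) (code 64) = true := by
  decide +kernel

theorem d65 : Nat.beq (trF (P.img P.d code) [3,2,2,3,7,4,5,7,2,3,6,5,4,4,1,5,3,3,3,3,5,4,6,1,5,7,2,4,5] (code 64)) (code 65) = true := by
  decide +kernel


end Cfsg.H6.HN.M
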