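import Cfsg.Agent.H6.HN.M.D0

set_option autoImplicit false
set_option maxRecDepth 100000
set_option Elab.async false

namespace Cfsg.H6.HN.M

theorem d66 : Nat.beq (trF (P.img P.d code) [3,2,5,3,5,2,3,7,5,3,6,5,1] (code 65)) (code 66) = true := by
  decide +kernel

theorem d67 : Nat.beq (trF (P.img P.d code) [67] (code 66)) P.one = true := by
  decide +kernel

theorem d68 : Nat.beq (trF (P.img P.d code) [68] (code 60)) P.one = true := by
  decide +kernel

theorem d69 : Nat.beq (trF (P.img P.d code) [57,57,60,60,63,63,66,60,63,67,68] (code 54)) (code 69) = true := by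
  decide +kernel

theorem d70 : Nat.beq (trF (P.img P.d code) [70] (code 63)) P.one = true := by
  decide +kernel

theorem d71 : Nat.beq (trF (P.img P.d code) [3,5,7,5,1,4,7,3,5,7,2,5,3,7,7,5,7,1,1,3,7] (code 5)) (code 71) = true := by
  decide +kernel

theorem d72 : Nat.beq (trF (P.img P.d code) [72] (code 71)) P.one = true := by
  decide +kernel

theorem d73 : Nat.beq (trF (P.img P.d code) [56,66,54,56,71,68,66,70,72,68,63] (code 70)) (code 73) = true := by
  decide +kernel

theorem d74 : Nat.beq (trF (P.img P.d code) [57,72,66,60,70,57,57,53,53,68,66] (code 68)) (code 74) = true := by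
  decide +kernel

theorem d75 : Nat.beq (trF (P.img P.d code) [66,71,71,54,56,72,57,67,72,54,72] (code 66)) (code 75) = true := by
  decide +kernel

theorem r0 : Nat.beq (trF (P.img P.d code) [13,13] (code 13)) P.one = true := by
  decide +kernel

theorem r1 : Nat.beq (trF (P.img P.d code) [1,3,1,1,4] (code 1)) P.one = true := by
  decide +kernel

theorem r2 : Nat.beq (trF (P.img P.d code) [14,14] (code 14)) P.one = true := by
  decide +kernel

theorem r3 : Nat.beq (trF (P.img P.d code) [15,15] (code 15)) P.one = true := by
  decide +kernel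

theorem r4 : Nat.beq (trF (P.img P.d code) [16,16,16,16,16,16,16] (code 16)) P.one = true := by
  decide +kernel

theorem r5 : Nat.beq (trF (P.img P.d code) [17,17,17] (code 17)) P.one = true := by
  decide +kernel


end Cfsg.H6.HN.M
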