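import Cfsg.Agent.H6.HN.M.D0

set_option autoImplicit false
set_option maxRecDepth 100000
set_option Elab.async false

namespace Cfsg.H6.HN.M

theorem r6 : Nat.beq (trF (P.img P.d code) [1,5,1] (code 5)) P.one = true := by
  decide +kernel

theorem r7 : Nat.beq (trF (P.img P.d code) [3,2,4,4,2,4,2,4,5,3,1,3,1,3,3,1,4,2,2] (code 5)) P.one = true := by
  decide +kernel

theorem r8 : Nat.beq (trF (P.img P.d code) [3,1,3,1] (code 18)) P.one = true := by
  decide +kernel

theorem r9 : Nat.beq (trF (P.img P.d code) [6,6,6,6] (code 6)) P.one = true := by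
  decide +kernel

theorem r10 : Nat.beq (trF (P.img P.d code) [6,1,6,6] (code 2)) P.one = true := by
  decide +kernel

theorem r11 : Nat.beq (trF (P.img P.d code) [4,6,3] (code 7)) P.one = true := by
  decide +kernel

theorem r12 : Nat.beq (trF (P.img P.d code) [19,19] (code 19)) P.one = true := by
  decide +kernel

theorem r13 : Nat.beq (trF (P.img P.d code) [2] (code 1)) P.one = true := by
  decide +kernel

theorem r14 : Nat.beq (trF (P.img P.d code) [4] (code 3)) P.one = true := by
  decide +kernel

theorem r15 : Nat.beq (trF (P.img P.d code) [5] (code 5)) P.one = true := by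
  decide +kernel

theorem r16 : Nat.beq (trF (P.img P.d code) [7] (code 6)) P.one = true := by
  decide +kernel

theorem px : Nat.beq (trF (P.img P.d code) [8,8,8,8,8,8,8,8,8,8,8,8,8,8,8,8,8,8] (code 8)) P.one = true := by
  decide +kernel

theorem pa0 : Nat.beq (trF (P.img P.d code) [9,9,9,9,9,9,9,9,9,9] (code 9)) P.one = true := by
  decide +kernel

theorem pb0 : Nat.beq (trF (P.img P.d code) [1,1,1] (code 1)) P.one = true := by
  decide +kernel

theorem pa1 : Nat.beq (trF (P.img P.d code) [10,10,10] (code 10)) P.one = true := by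
  decide +kernel

theorem pb1 : Nat.beq (trF (P.img P.d code) [6,6,6,6] (code 6)) P.one = true := by
  decide +kernel

theorem pa2 : Nat.beq (trF (P.img P.d code) [11,11] (code 11)) P.one = true := by
  decide +kernel

theorem pb2 : Nat.beq (trF (P.img P.d code) [5] (code 5)) P.one = true := by
  decide +kernel


end Cfsg.H6.HN.M
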